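import Groth.Agent.Gaga.H973.FrameCoc
import Groth.Agent.Gaga.H973.AnCoc
import Groth.Agent.Ega2.TensHom

/-!
# Twisting by a cocycle is tensoring with the line bundle given by the cocycle

`tw_tensor` ([TW-TENS] of helper973): `twObj c M ≅ CohB1.tensorMod M L`, for `L` with local generators `e i`,
`e_j = g_ij e_i`.
-/

set_option autoImplicit false
set_option linter.dupNamespace false

open CategoryTheory TopologicalSpace Opposite AlgebraicGeometry

noncomputable section

namespace Groth.Agent.Gaga.H883.TwTens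

open Groth.Agent.Gaga.H975.ModSec Groth.Agent.Gaga.H973.Tw Groth.Agent.Gaga.H973.TwEquiv
open Groth.Agent.Gaga.H973.AnCoc Groth.Agent.Gaga.H973.FrameCoc

/-- `m ⊗ n ↦ μ m n` is bijective if `n = c e'` uniquely and `m ↦ μ m e'` is bijective. -/
theorem bijective_lift' {R M N K : Type} [CommRing R] [AddCommGroup M] [AddCommGroup N] [AddCommGroup K]
    [Module R M] [Module R N] [Module R K] (μ : M →ₗ[R] N →ₗ[R] K) (e' : N)
    (he' : Function.Bijective (fun c : R => c • e')) (h : Function.Bijective (fun m : M => μ m e')) :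
    Function.Bijective (TensorProduct.lift μ) := by
  obtain ⟨b, hb⟩ : ∃ b : R ≃ₗ[R] N, ∀ c, b c = c • e' :=
    ⟨LinearEquiv.ofBijective (LinearMap.toSpanSingleton R N e') he', fun c => rfl⟩
  let g : M ≃ₗ[R] TensorProduct R M N :=
    (TensorProduct.rid R M).symm ≪≫ₗ TensorProduct.congr (LinearEquiv.refl R M) b
  have hg : ∀ m, TensorProduct.lift μ (g m) = μ m e' := by
    intro m
    simp [g, hb]
  have h3 : Function.Bijective (TensorProduct.lift μ ∘ g) := by
    convert h using 1
    funext m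
    exact hg m
  exact (Function.Bijective.of_comp_iff _ g.bijective).1 h3

section

variable {T : TopCat.{0}} {R : TopCat.Sheaf CommRingCat.{0} T} {𝒰 : Cov T} (c : Coc 𝒰 R) {L : Mod R}
  (F : Fr 𝒰 L) (hg : ∀ i j (W : Opens T) (hi : W ≤ 𝒰.U i) (hj : W ≤ 𝒰.U j),
    res L hj (F.e j) = c.G i j hi hj • res L hi (F.e i)) (M : Mod R)

theorem co_zero (i : 𝒰.ι) {W : Opens T} (hi : W ≤ 𝒰.U i) : F.co i hi (0 : Sec L W) = 0 :=
  F.co_eq i hi (by rw [zero_smul])

theorem co_smul' (i : 𝒰.ι) {W : Opens T} (hi : W ≤ 𝒰.U i) (r : O R W) (s : Sec L W) :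
    F.co i hi (r • s) = r * F.co i hi s :=
  F.co_eq i hi (by rw [mul_smul, F.co_smul])

include hg in
theorem co_rel (i j : 𝒰.ι) {W : Opens T} (hi : W ≤ 𝒰.U i) (hj : W ≤ 𝒰.U j) (s : Sec L W) :
    F.co i hi s = c.G i j hi hj * F.co j hj s :=
  F.co_eq i hi (by
    rw [mul_comm, mul_smul, ← hg i j W hi hj, F.co_smul])

/-- The pairing `M(V) × L(V) → (Tw M)(V)`. -/
def pair {V : Opens T} (m : Sec M V) (l : Sec L V) : Sec (twObj c M) V :=
  mkSec c (fun i _ hV hi => F.co i hi (res L hV l) • res M hV m)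
    (fun i W W' hV hi h => by rw [res_smul, F.resO_co, res_res, res_res])
    (fun i j W hV hi hj => by rw [co_rel c F hg i j hi hj, mul_smul])

theorem cmp_pair {V : Opens T} (m : Sec M V) (l : Sec L V) (i : 𝒰.ι) (W : Opens T) (hV : W ≤ V)
    (hi : W ≤ 𝒰.U i) : cmp c (pair c F hg M m l) i W hV hi = F.co i hi (res L hV l) • res M hV m :=
  cmp_mkSec c _ _ _ i W hV hi

/-- The pairing as a bilinear map. -/
def pairL (V : Opens T) : Sec M V →ₗ[O R V] Sec L V →ₗ[O R V] Sec (twObj c M) V :=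
  LinearMap.mk₂ (O R V) (fun m l => pair c F hg M m l)
    (fun m m' l => tw_ext fun i W hV hi => by
      rw [cmp_add, cmp_pair, cmp_pair, cmp_pair, map_add, smul_add])
    (fun r m l => tw_ext fun i W hV hi => by
      rw [cmp_smul, cmp_pair, cmp_pair, res_smul, smul_comm])
    (fun m l l' => tw_ext fun i W hV hi => by
      rw [cmp_add, cmp_pair, cmp_pair, cmp_pair, map_add, F.co_add, add_smul])
    (fun r m l => tw_ext fun i W hV hi => by
      rw [cmp_smul, cmp_pair, cmp_pair, res_smul, co_smul', mul_smul])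

theorem pairL_apply (V : Opens T) (m : Sec M V) (l : Sec L V) : pairL c F hg M V m l = pair c F hg M m l := rfl

theorem res_pairL {V W : Opens T} (h : W ≤ V) (m : Sec M V) (l : Sec L V) :
    res (twObj c M) h (pairL c F hg M V m l) = pairL c F hg M W (res M h m) (res L h l) :=
  tw_ext fun i W' hV hi => by
    rw [pairL_apply, pairL_apply, cmp_res, cmp_pair, cmp_pair, res_res, res_res]

theorem pairL_gen {V : Opens T} (i : 𝒰.ι) (hV : V ≤ 𝒰.U i) (m : Sec M V) :
    pairL c F hg M V m (res L hV (F.e i)) = loc c i hV m := by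
  refine tw_ext_of_le hV ?_
  rw [pairL_apply, cmp_pair, cmp_loc_self, res_res, F.co_eq i hV (one_smul _ _), one_smul]

theorem bijective_loc {V : Opens T} (i : 𝒰.ι) (hV : V ≤ 𝒰.U i) :
    Function.Bijective (fun m : Sec M V => loc c i hV m) :=
  ⟨fun m m' h => by
    have := congrArg (fun s => cmp c s i V le_rfl hV) h
    simpa only [cmp_loc_self, res_self] using this,
  fun s => ⟨cmp c s i V le_rfl hV, loc_cmp i hV s⟩⟩

theorem bijective_lift_pairL {V : Opens T} (i : 𝒰.ι) (hV : V ≤ 𝒰.U i) :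
    Function.Bijective (TensorProduct.lift (pairL c F hg M V)) := by
  refine bijective_lift' (pairL c F hg M V) (res L hV (F.e i)) (F.bij i V hV) ?_
  have h : (fun m : Sec M V => pairL c F hg M V m (res L hV (F.e i))) = fun m => loc c i hV m :=
    funext fun m => pairL_gen c F hg M i hV m
  rw [h]
  exact bijective_loc c M i hV

end

/-- Twisting by a cocycle is tensoring with the line bundle of the cocycle, frame version. -/
theorem isIso_frame {X : Scheme.{0}} {𝒰 : Cov (spc X)} (c : Coc 𝒰 X.sheaf) (L : X.Modules)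
    (F : Fr (T := spc X) (R := X.sheaf) 𝒰 L)
    (hg : ∀ i j (W : Opens (spc X)) (hi : W ≤ 𝒰.U i) (hj : W ≤ 𝒰.U j),
      res L hj (F.e j) = c.G i j hi hj • res L hi (F.e i))
    (M : X.Modules) :
    IsIso (Ega2.TensHom.tensDesc (X := X) (M := M) (N := L) (K := (twObj (T := spc X) (R := X.sheaf) c M : X.Modules))
      (fun V => pairL (T := spc X) (R := X.sheaf) c F hg M V)
      (fun U V i m n => res_pairL (T := spc X) (R := X.sheaf) c F hg M i.le m n)) := by
  refine Ega2.TensHom.isIso_desc _ fun x => ?_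
  obtain ⟨i, hi⟩ := 𝒰.cov x
  exact ⟨𝒰.U i, hi, fun V hV => bijective_lift_pairL (T := spc X) (R := X.sheaf) c F hg M i hV⟩

/-- [TW-TENS] twisting is tensoring with the line bundle given by the cocycle. -/
theorem tw_tensor {X : Scheme.{0}} {𝒰 : Cov (spc X)} (c : Coc 𝒰 X.sheaf) (L : X.Modules)
    (e : ∀ i, Sec (T := spc X) (R := X.sheaf) L (𝒰.U i))
    (he : ∀ i (W : Opens (spc X)) (hi : W ≤ 𝒰.U i),
      Function.Bijective (fun a : O (T := spc X) X.sheaf W => a • res L hi (e i)))
    (hg : ∀ i j (W : Opens (spc X)) (hi : W ≤ 𝒰.U i) (hj : W ≤ 𝒰.U j),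
      res L hj (e j) = c.G i j hi hj • res L hi (e i))
    (M : X.Modules) : Nonempty (twObj (T := spc X) (R := X.sheaf) c M ≅ CohB1.tensorMod M L) := by
  have := isIso_frame c L ⟨e, he⟩ hg M
  exact ⟨(asIso (Ega2.TensHom.tensDesc (X := X) (M := M) (N := L)
    (K := (twObj (T := spc X) (R := X.sheaf) c M : X.Modules))
      (fun V => pairL (T := spc X) (R := X.sheaf) c (⟨e, he⟩ : Fr (T := spc X) (R := X.sheaf) 𝒰 L) hg M V)
      (fun U V i m n => res_pairL (T := spc X) (R := X.sheaf) c ⟨e, he⟩ hg M i.le m n))).symm⟩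

end Groth.Agent.Gaga.H883.TwTens
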